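import Cfsg.Agent.H19.Cores
import Cfsg.Agent.H40.PCore
import Cfsg.Agent.H77.SolvableCore
import Cfsg.Agent.H84.SolvableGK
import Cfsg.Agent.H30.Basics
import Cfsg.Agent.H45.NormalSylow
import Cfsg.Prelude.Def_DegreeGraph
import Cfsg.Agent.H44.Codegree

/-!
# Vertices of the degree graph of a solvable group of small order

If `r` divides the order of a solvable group once and few prime powers dividing the order are
congruent to one modulo `r`, then either the Sylow `r`-subgroup or another Sylow subgroup is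
abelian and normal.
-/

set_option autoImplicit false

namespace Cfsg.Agent.H28.DegreeGraph

open Subgroup

/-- A normal abelian Sylow subgroup removes the prime from the vertices of the degree graph. -/
theorem not_mem_degreePrimes {G : Type*} [Group G] [Finite G] {p : ℕ} [hp : Fact p.Prime]
    (A : Subgroup G) [A.Normal] (hA : IsPGroup p A) (hidx : ¬ p ∣ A.index)
    (hab : ∀ a ∈ A, ∀ b ∈ A, a * b = b * a) : p ∉ Cfsg.degreePrimes G := by
  rintro ⟨-, d, ⟨χ, rfl⟩, hd⟩
  obtain ⟨n, ρ, hρ, e⟩ := χ.2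
  have := hρ
  refine H45.not_dvd_finrank_of_abelian_normal_sylow ρ p A hA hidx hab ?_
  have : Cfsg.charDegree (χ : G → ℂ) = Module.finrank ℂ (Fin n → ℂ) := by
    simp [Cfsg.charDegree, ← e, ρ.char_one]
  rwa [← this]

/-- A Sylow subgroup of prime order normal in the group excludes its prime. -/
theorem not_mem_of_normal_sylow {G : Type*} [Group G] [Finite G] {r m : ℕ} [hr : Fact r.Prime]
    (hcard : Nat.card G = r * m) (hm : ¬ r ∣ m) (R : Sylow r G) (hn : (R : Subgroup G).Normal) :
    r ∉ Cfsg.degreePrimes G := by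
  have hR : Nat.card (R : Subgroup G) = r := by
    simpa using H30.card_sylow_subgroup (a := 1) R (by rw [hcard, pow_one]) hm
  have : IsCyclic (R : Subgroup G) := isCyclic_of_prime_card hR
  exact not_mem_degreePrimes (R : Subgroup G) R.2 R.not_dvd_index fun a ha b hb =>
    congrArg Subtype.val ((IsCyclic.isMulCommutative (α := (R : Subgroup G))).is_comm.comm ⟨a, ha⟩ ⟨b, hb⟩)

/-- Descending normality through a normal `q`-subgroup. -/
theorem normal_of_sup_normal {X : Type*} [Group X] [Finite X] {r : ℕ} [hr : Fact r.Prime]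
    (R : Sylow r X) (hR : Nat.card (R : Subgroup X) = r) (Y : Subgroup X) [Y.Normal]
    (hY : ∀ d, d ∣ Nat.card Y → d ≠ 1 → d % r ≠ 1) (hRY : ((R : Subgroup X) ⊔ Y).Normal) :
    (R : Subgroup X).Normal := by
  set L := (R : Subgroup X) ⊔ Y with hL
  let R' : Sylow r L := R.subtype le_sup_left
  have hone : Nat.card (Sylow r L) = 1 := by
    have hmod : Nat.card (Sylow r L) % r = 1 := by
      have := card_sylow_modEq_one r L
      rwa [Nat.ModEq, Nat.mod_eq_of_lt hr.out.one_lt] at this
    have hd : Nat.card (Sylow r L) ∣ Nat.card L := R'.card_dvd_index.trans (index_dvd_card _)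
    have hLd : Nat.card L ∣ r * Nat.card Y := by
      rw [← hR, mul_comm, hL, sup_comm]
      exact H19.card_sup_dvd Y (R : Subgroup X)
    have hcop : (Nat.card (Sylow r L)).Coprime r := by
      rw [Nat.coprime_comm, hr.out.coprime_iff_not_dvd]
      exact fun h => by
        rw [Nat.mod_eq_zero_of_dvd h] at hmod
        omega
    by_contra hne
    exact hY _ (hcop.dvd_of_dvd_mul_left (hd.trans hLd)) hne hmod
  have hsub : Subsingleton (Sylow r L) := (Nat.card_eq_one_iff_unique.mp hone).1
  have hR'n : (R' : Subgroup L).Normal := R'.normal_of_subsingleton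
  have hchar : (R' : Subgroup L).Characteristic := R'.characteristic_of_normal hR'n
  have hmap : (R' : Subgroup L).map L.subtype = (R : Subgroup X) := by
    rw [Sylow.coe_subtype, subgroupOf_map_subtype, inf_of_le_left le_sup_left]
  rw [← hmap]
  exact ConjAct.normal_of_characteristic_of_normal

/-- If the image of a Sylow subgroup is normal, so is its product with the kernel. -/
theorem sup_normal_of_map_normal {X : Type*} [Group X] (R Y : Subgroup X) [Y.Normal]
    (h : (R.map (QuotientGroup.mk' Y)).Normal) : (R ⊔ Y).Normal := by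
  have := h.comap (QuotientGroup.mk' Y)
  rwa [comap_map_eq, QuotientGroup.ker_mk'] at this

/-- A solvable group has a normal Sylow `r`-subgroup if no relevant prime power is `1` modulo `r`. -/
theorem normal_sylow_of_no_bad {r : ℕ} [hr : Fact r.Prime] : ∀ (N : ℕ) (X : Type*) [Group X]
    [Finite X] [Group.IsSolvable X], Nat.card X = N → ¬ r * r ∣ N →
    (∀ q i : ℕ, q.Prime → 0 < i → q ^ i ∣ N → q ^ i % r ≠ 1) →
    ∀ R : Sylow r X, (R : Subgroup X).Normal := by
  intro N
  induction N using Nat.strong_induction_on with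
  | _ N ih =>
    intro X _ _ _ hX hrr hbad R
    rcases subsingleton_or_nontrivial X with hs | hs
    · exact ⟨fun a _ g => by rw [Subsingleton.elim (g * a * g⁻¹) 1]; exact one_mem _⟩
    obtain ⟨q, Y, hq, hYn, hY1, hYq⟩ := H84.exists_normal_pGroup (Q := X)
    have := Fact.mk hq
    obtain ⟨j, hj⟩ := IsPGroup.iff_card.mp hYq
    have hjpos : 0 < j := by
      rcases Nat.eq_zero_or_pos j with h | h
      · exact absurd (card_eq_one.mp (by rw [hj, h, pow_zero])) hY1
      · exact h
    by_cases hqr : q = r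
    · subst hqr
      have hYR : Y ≤ R := by
        obtain ⟨S, hS⟩ := hYq.exists_le_sylow
        obtain ⟨g, hg⟩ := MulAction.exists_smul_eq X S R
        intro y hy
        rw [← hg]
        exact ⟨g⁻¹ * y * g, hS (by simpa using hYn.conj_mem y hy g⁻¹),
          show g * (g⁻¹ * y * g) * g⁻¹ = y by group⟩
      have hle : Nat.card (R : Subgroup X) ∣ q := by
        obtain ⟨i, hi⟩ := IsPGroup.iff_card.mp R.2
        have hd : q ^ i ∣ N := hX ▸ hi ▸ card_subgroup_dvd_card _
        rcases Nat.lt_or_ge i 2 with h | h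
        · rw [hi]; exact (pow_dvd_pow q (by omega : i ≤ 1)).trans (by rw [pow_one])
        · exact absurd ((pow_dvd_pow q h).trans hd) (by rw [sq]; exact hrr)
      have hqY : q ≤ Nat.card Y := by
        rw [hj]; exact Nat.le_self_pow (by omega) q
      rw [← eq_of_le_of_card_ge hYR ((Nat.le_of_dvd hq.pos hle).trans hqY)]
      exact hYn
    · have hlt : Nat.card (X ⧸ Y) < N := by
        have := Y.card_mul_index
        rw [index_eq_card, hX, hj] at this
        have h1 : 1 < q ^ j := Nat.one_lt_pow (by omega) hq.one_lt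
        have h2 : 0 < Nat.card (X ⧸ Y) := Nat.card_pos
        nlinarith
      have hdvd : Nat.card (X ⧸ Y) ∣ N := by
        rw [← hX, ← index_eq_card]; exact index_dvd_card Y
      have hn := ih _ hlt (X ⧸ Y) rfl (fun h => hrr (h.trans hdvd))
        (fun q i hq hi hd => hbad q i hq hi (hd.trans hdvd))
        (R.mapSurjective (f := QuotientGroup.mk' Y) (QuotientGroup.mk'_surjective Y))
      have hsup := sup_normal_of_map_normal (R : Subgroup X) Y hn
      rcases Nat.eq_zero_or_pos (Nat.card (R : Subgroup X) % r) with h0 | h0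
      · have hR : Nat.card (R : Subgroup X) = r := by
          obtain ⟨i, hi⟩ := IsPGroup.iff_card.mp R.2
          have hd : r ^ i ∣ N := hX ▸ hi ▸ card_subgroup_dvd_card _
          have hi2 : i < 2 := by
            by_contra h
            exact hrr (by rw [← sq]; exact (pow_dvd_pow r (by omega : 2 ≤ i)).trans hd)
          interval_cases i
          · rw [hi, pow_zero, Nat.mod_eq_of_lt hr.out.one_lt] at h0; omega
          · rw [hi, pow_one]
        refine normal_of_sup_normal R hR Y (fun d hd hd1 => ?_) hsup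
        rw [hj] at hd
        obtain ⟨i, hi, rfl⟩ := (Nat.dvd_prime_pow hq).mp hd
        refine hbad q i hq (Nat.pos_of_ne_zero fun h => hd1 (by rw [h, pow_zero]))
          ((pow_dvd_pow q hi).trans ?_)
        rw [← hj, ← hX]
        exact card_subgroup_dvd_card Y
      · obtain ⟨i, hi⟩ := IsPGroup.iff_card.mp R.2
        have hi0 : i = 0 := by
          by_contra h
          rw [hi, Nat.mod_eq_zero_of_dvd (dvd_pow_self r h)] at h0
          omega
        rw [card_eq_one.mp (by rw [hi, hi0, pow_zero] : Nat.card (R : Subgroup X) = 1)]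
        infer_instance

/-- Arithmetic condition: besides the full `q`-part no prime power dividing `r * m` is `1` mod `r`. -/
def OnlyBad (r m q a : ℕ) : Prop :=
  ∀ q' i : ℕ, q'.Prime → 0 < i → q' ^ i ∣ r * m → q' ^ i % r = 1 → q' = q ∧ i = a

/-- The solvable groups considered have `r` or `q` outside the vertices of their degree graph. -/
theorem solvable_vertices {G : Type*} [Group G] [Finite G] [Group.IsSolvable G] {r q a m : ℕ}
    [hr : Fact r.Prime] [hq : Fact q.Prime] (hqr : q ≠ r) (ha : 0 < a) (hcard : Nat.card G = r * m)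
    (hm : ¬ r ∣ m) (hqa : ¬ q ^ (a + 1) ∣ m) (hbad : OnlyBad r m q a) (R : Sylow r G)
    (hrv : r ∈ Cfsg.degreePrimes G) : q ∉ Cfsg.degreePrimes G := by
  classical
  have hRn : ¬ (R : Subgroup G).Normal := fun h => not_mem_of_normal_sylow hcard hm R h hrv
  have hR : Nat.card (R : Subgroup G) = r := by
    simpa using H30.card_sylow_subgroup (a := 1) R (by rw [hcard, pow_one]) hm
  have hrr : ¬ r * r ∣ r * m := fun h => hm (Nat.dvd_of_mul_dvd_mul_left hr.out.pos h)
  -- the only source of a non-normal Sylow subgroup is the full `q`-part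
  have hq_part : ∀ (Z : Type _) [Group Z] [Finite Z] [Group.IsSolvable Z], Nat.card Z ∣ r * m →
      ¬ q ^ a ∣ Nat.card Z → ∀ S : Sylow r Z, (S : Subgroup Z).Normal := by
    intro Z _ _ _ hZ hqZ S
    refine normal_sylow_of_no_bad _ Z rfl (fun h => hrr (h.trans hZ)) (fun q' i hq' hi hd h1 => ?_) S
    obtain ⟨rfl, rfl⟩ := hbad q' i hq' hi (hd.trans hZ) h1
    exact hqZ hd
  set A := Cfsg.pPrimeCore q G with hA
  have hAn : A.Normal := H19.pPrimeCore_normal q G
  have hAc : (Nat.card A).Coprime q := H19.pPrimeCore_coprime q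
  have hqA : ¬ q ∣ Nat.card A := fun h => by
    have := Nat.eq_one_of_dvd_coprimes hAc h dvd_rfl
    exact hq.out.ne_one this
  -- `R` centralises `A`
  have hRA : ((R : Subgroup G).subgroupOf ((R : Subgroup G) ⊔ A)).Normal := by
    have hd : Nat.card ↥((R : Subgroup G) ⊔ A) ∣ r * m := hcard ▸ card_subgroup_dvd_card _
    have hnq : ¬ q ^ a ∣ Nat.card ↥((R : Subgroup G) ⊔ A) := by
      intro h
      have h0 := (dvd_pow_self q ha.ne').trans h
      rw [sup_comm] at h0
      have h1 := h0.trans (H19.card_sup_dvd A (R : Subgroup G))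
      rcases (Nat.Prime.dvd_mul hq.out).mp h1 with h2 | h2
      all_goals
        first
          | exact hqA h2
          | exact hqr ((Nat.prime_dvd_prime_iff_eq hq.out hr.out).mp (hR ▸ h2))
    have := hq_part ↥((R : Subgroup G) ⊔ A) hd hnq (R.subtype le_sup_left)
    rwa [Sylow.coe_subtype] at this
  have hdisj : Disjoint (R : Subgroup G) A := by
    rw [disjoint_iff]
    by_contra h
    have hd : Nat.card ↥((R : Subgroup G) ⊓ A) ∣ r :=
      (card_dvd_of_le (inf_le_left : (R : Subgroup G) ⊓ A ≤ R)).trans hR.dvd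
    rcases (Nat.dvd_prime hr.out).mp hd with h1 | h1
    · exact h (card_eq_one.mp h1)
    have hRleA : (R : Subgroup G) ≤ A := by
      rw [← eq_of_le_of_card_ge (inf_le_left : (R : Subgroup G) ⊓ A ≤ R) (by rw [h1, hR])]
      exact inf_le_right
    apply hRn
    have hchar : ((R : Subgroup G).subgroupOf A).Characteristic := by
      have := hq_part A (hcard ▸ card_subgroup_dvd_card A)
        (fun h => hqA ((dvd_pow_self q ha.ne').trans h)) (R.subtype hRleA)
      have h2 := (R.subtype hRleA).characteristic_of_normal this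
      rwa [Sylow.coe_subtype] at h2
    have := ConjAct.normal_of_characteristic_of_normal (H := A) (K := (R : Subgroup G).subgroupOf A)
    rwa [subgroupOf_map_subtype, inf_of_le_left hRleA] at this
  have hRcA : (R : Subgroup G) ≤ centralizer (A : Set G) := by
    intro x hx
    refine mem_centralizer_iff.mpr fun y hy => ?_
    have hAN : A ≤ normalizer ((R : Subgroup G) : Set G) :=
      le_sup_right.trans ((normal_subgroupOf_iff_le_normalizer le_sup_left).mp hRA)
    have h1 : y * x * y⁻¹ * x⁻¹ ∈ (R : Subgroup G) :=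
      mul_mem ((mem_normalizer_iff.mp (hAN hy) x).mp hx) (inv_mem hx)
    have h2 : y * x * y⁻¹ * x⁻¹ ∈ A := by
      rw [show y * x * y⁻¹ * x⁻¹ = y * (x * y⁻¹ * x⁻¹) by group]
      exact mul_mem hy (hAn.conj_mem _ (inv_mem hy) x)
    have h3 : y * x * y⁻¹ * x⁻¹ ∈ (R : Subgroup G) ⊓ A := ⟨h1, h2⟩
    rw [disjoint_iff.mp hdisj, mem_bot, mul_inv_eq_one, mul_inv_eq_iff_eq_mul] at h3
    exact h3
  -- the quotient by `A`
  set π := QuotientGroup.mk' A with hπ
  have hcore : Cfsg.pPrimeCore q (G ⧸ A) = ⊥ := H19.pPrimeCore_quotient_pPrimeCore q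
  let R₁ : Sylow r (G ⧸ A) := R.mapSurjective (f := π) (QuotientGroup.mk'_surjective A)
  have hR₁ : Nat.card (R₁ : Subgroup (G ⧸ A)) = r := by
    show Nat.card ((R : Subgroup G).map π) = r
    refine Eq.trans ?_ hR
    refine (Nat.card_congr (Equiv.ofBijective
      (fun x : (R : Subgroup G) => (⟨π x, mem_map_of_mem π x.2⟩ : (R : Subgroup G).map π)) ⟨?_, ?_⟩)).symm
    · intro x y hxy
      have : π x = π y := congrArg Subtype.val hxy
      rw [hπ, QuotientGroup.mk'_apply, QuotientGroup.mk'_apply, QuotientGroup.eq] at this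
      have h3 : (x : G)⁻¹ * y ∈ (R : Subgroup G) ⊓ A := mem_inf.mpr ⟨mul_mem (inv_mem x.2) y.2, this⟩
      rw [disjoint_iff.mp hdisj, mem_bot, inv_mul_eq_one] at h3
      exact Subtype.ext h3
    · rintro ⟨_, x, hx, rfl⟩
      exact ⟨⟨x, hx⟩, rfl⟩
  have hR₁ne : (R₁ : Subgroup (G ⧸ A)) ≠ ⊥ := fun h => by
    rw [h, card_bot] at hR₁; exact hr.out.ne_one hR₁.symm
  have hR₁n : ¬ (R₁ : Subgroup (G ⧸ A)).Normal := fun h => hR₁ne (by
    rw [eq_bot_iff, ← hcore]
    exact H19.le_pPrimeCore h (by rw [hR₁]; exact (Nat.coprime_primes hr.out hq.out).mpr hqr.symm))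
  have hXd : Nat.card (G ⧸ A) ∣ r * m := by
    rw [← hcard, ← index_eq_card]; exact index_dvd_card A
  -- every non-trivial normal `q`-subgroup of the quotient is a Sylow subgroup
  have hfull : ∀ Y : Subgroup (G ⧸ A), Y.Normal → IsPGroup q Y → Y ≠ ⊥ → q ^ a ∣ Nat.card Y := by
    intro Y hYn hYq hY1
    by_contra hlt
    obtain ⟨i, hi⟩ := IsPGroup.iff_card.mp hYq
    have hi0 : 0 < i := by
      rcases Nat.eq_zero_or_pos i with h | h
      · exact absurd (card_eq_one.mp (by rw [hi, h, pow_zero])) hY1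
      · exact h
    have hnq : ¬ q ^ a ∣ Nat.card ((G ⧸ A) ⧸ Y) := by
      intro h
      apply hqa
      have hd : q ^ (i + a) ∣ r * m := by
        refine (?_ : q ^ (i + a) ∣ Nat.card (G ⧸ A)).trans hXd
        rw [← Y.card_mul_index, index_eq_card, pow_add, hi]
        exact Nat.mul_dvd_mul_left _ h
      refine (pow_dvd_pow q (by omega : a + 1 ≤ i + a)).trans ?_
      exact (Nat.Coprime.pow_left _ ((Nat.coprime_primes hq.out hr.out).mpr hqr)).dvd_of_dvd_mul_left hd
    have hn := hq_part ((G ⧸ A) ⧸ Y) ((index_eq_card Y ▸ index_dvd_card Y).trans hXd) hnq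
      (R₁.mapSurjective (f := QuotientGroup.mk' Y) (QuotientGroup.mk'_surjective Y))
    refine hR₁n (normal_of_sup_normal R₁ hR₁ Y (fun d hd hd1 h1 => ?_)
      (sup_normal_of_map_normal _ Y hn))
    rw [hi] at hd
    obtain ⟨k, hk, rfl⟩ := (Nat.dvd_prime_pow hq.out).mp hd
    obtain ⟨-, rfl⟩ := hbad q k hq.out (Nat.pos_of_ne_zero fun h => hd1 (by rw [h, pow_zero]))
      ((pow_dvd_pow q hk).trans ((hi ▸ card_subgroup_dvd_card Y : q ^ i ∣ Nat.card (G ⧸ A)).trans hXd)) h1
    exact hlt (hi ▸ pow_dvd_pow q hk)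
  set Q := Cfsg.pCore q (G ⧸ A) with hQ
  have hQn : Q.Normal := H40.pCore_normal' q (G ⧸ A)
  have hQp : IsPGroup q Q := H40.isPGroup_pCore q (G ⧸ A)
  have hQcent := H77.centralizer_pCore_le (G := G ⧸ A) q hcore
  have hQ1 : Q ≠ ⊥ := by
    intro h
    refine hR₁ne ?_
    have hle : (R₁ : Subgroup (G ⧸ A)) ≤ Q := le_trans (fun x _ => mem_centralizer_iff.mpr
      fun y hy => by rw [show y = 1 by rw [← hQ, h] at hy; simpa using hy]; simp) hQcent
    rwa [h, le_bot_iff] at hle
  have hQfull := hfull Q hQn hQp hQ1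
  have hQeq : ∀ Y : Subgroup (G ⧸ A), Y.Normal → IsPGroup q Y → Y ≠ ⊥ → Y = Q := by
    intro Y hYn hYq hY1
    refine eq_of_le_of_card_ge (H19.le_pCore hYn hYq) ?_
    obtain ⟨i, hi⟩ := IsPGroup.iff_card.mp hQp
    have hia : i ≤ a := by
      by_contra h
      refine hqa ((Nat.Coprime.pow_left _ ((Nat.coprime_primes hq.out hr.out).mpr hqr)).dvd_of_dvd_mul_left
        (((pow_dvd_pow q (by omega : a + 1 ≤ i)).trans ?_).trans hXd))
      rw [← hi]; exact card_subgroup_dvd_card Q
    refine Nat.le_of_dvd Nat.card_pos ((dvd_trans ?_ (hfull Y hYn hYq hY1)))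
    rw [hi]; exact pow_dvd_pow q hia
  have hQab : ∀ u ∈ Q, ∀ v ∈ Q, u * v = v * u := by
    set Z := (Subgroup.center Q).map Q.subtype with hZ
    have hZn : Z.Normal := ConjAct.normal_of_characteristic_of_normal
    have : Nontrivial Q := (nontrivial_iff_ne_bot Q).mpr hQ1
    have hcne : Nontrivial (Subgroup.center Q) := hQp.center_nontrivial
    have hZ1 : Z ≠ ⊥ := by
      rw [hZ, ne_eq, map_eq_bot_iff_of_injective _ Q.subtype_injective]
      exact (nontrivial_iff_ne_bot _).mp hcne
    have hZQ := hQeq Z hZn ((hQp.to_subgroup _).map _) hZ1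
    intro u hu v hv
    obtain ⟨w, hw, rfl⟩ := (hZQ ▸ hu : u ∈ Z)
    exact (congrArg Subtype.val (mem_center_iff.mp hw ⟨v, hv⟩)).symm
  -- `Q` lies in the image of the centralizer of `A`
  set C := centralizer (A : Set G) with hC
  have hCn : C.Normal := inferInstance
  have hCimg : Q ≤ C.map π := by
    have hn : (C.map π ⊓ Q).Normal := by
      have := hCn.map π (QuotientGroup.mk'_surjective A)
      infer_instance
    by_cases h : C.map π ⊓ Q = ⊥
    · exfalso
      refine hR₁ne ?_
      have hle : (R₁ : Subgroup (G ⧸ A)) ≤ Q := by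
        refine le_trans (fun x hx => mem_centralizer_iff.mpr fun y hy => ?_) hQcent
        have hx' : x ∈ C.map π := map_mono hRcA hx
        have hCmn := hCn.map π (QuotientGroup.mk'_surjective A)
        have h1 : y * x * y⁻¹ * x⁻¹ ∈ C.map π ⊓ Q := mem_inf.mpr ⟨mul_mem (hCmn.conj_mem x hx' y) (inv_mem hx'), by
          rw [show y * x * y⁻¹ * x⁻¹ = y * (x * y⁻¹ * x⁻¹) by group]
          exact mul_mem hy (hQn.conj_mem _ (inv_mem hy) x)⟩
        rw [h, mem_bot, mul_inv_eq_one, mul_inv_eq_iff_eq_mul] at h1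
        exact h1
      have hd : r ∣ Nat.card Q := hR₁ ▸ card_dvd_of_le hle
      obtain ⟨i, hi⟩ := IsPGroup.iff_card.mp hQp
      rw [hi] at hd
      exact absurd ((Nat.prime_dvd_prime_iff_eq hr.out hq.out).mp (hr.out.dvd_of_dvd_pow hd)) hqr.symm
    · exact inf_eq_right.mp (hQeq _ hn (hQp.to_le inf_le_right) h)
  have hqaC : q ^ a ∣ Nat.card C :=
    (hQfull.trans (card_dvd_of_le hCimg)).trans (card_map_dvd C π)
  obtain ⟨T, hT⟩ := Sylow.exists_subgroup_card_pow_prime q hqaC
  set T' := T.map C.subtype with hT'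
  have hT'c : Nat.card T' = q ^ a := by rw [hT', card_subtype, hT]
  have hT'C : T' ≤ C := map_subtype_le T
  have hT'q : IsPGroup q T' := IsPGroup.of_card hT'c
  have hidx : ¬ q ∣ T'.index := by
    intro h
    refine hqa ((Nat.Coprime.pow_left _ ((Nat.coprime_primes hq.out hr.out).mpr hqr)).dvd_of_dvd_mul_left ?_)
    rw [← hcard, ← T'.card_mul_index, hT'c, pow_succ]
    exact Nat.mul_dvd_mul_left _ h
  have hTA : Disjoint T' A := disjoint_iff.mpr (card_eq_one.mp (by
    refine Nat.eq_one_of_dvd_coprimes (k := Nat.card ↥(T' ⊓ A)) ((hAc.symm).pow_left a) ?_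
      (card_dvd_of_le inf_le_right)
    rw [← hT'c]; exact card_dvd_of_le inf_le_left))
  have hinj : ∀ u ∈ T', ∀ v ∈ T', π u = π v → u = v := by
    intro u hu v hv huv
    rw [hπ, QuotientGroup.mk'_apply, QuotientGroup.mk'_apply, QuotientGroup.eq] at huv
    have h3 : u⁻¹ * v ∈ T' ⊓ A := mem_inf.mpr ⟨mul_mem (inv_mem hu) hv, huv⟩
    rwa [disjoint_iff.mp hTA, mem_bot, inv_mul_eq_one] at h3
  have hTQ : T'.map π = Q := by
    have hT'Sc : T'.map π ≤ Q := by
      obtain ⟨S, hS⟩ := (hT'q.map π).exists_le_sylow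
      refine hS.trans (le_of_eq (eq_of_le_of_card_ge (H19.pCore_le_sylow S) ?_).symm)
      obtain ⟨i, hi⟩ := IsPGroup.iff_card.mp S.2
      rw [hi]
      refine Nat.le_of_dvd Nat.card_pos ((pow_dvd_pow q ?_).trans hQfull)
      by_contra h
      refine hqa ((Nat.Coprime.pow_left _ ((Nat.coprime_primes hq.out hr.out).mpr hqr)).dvd_of_dvd_mul_left
        (((pow_dvd_pow q (by omega : a + 1 ≤ i)).trans ?_).trans hXd))
      rw [← hi]; exact card_subgroup_dvd_card _
    refine eq_of_le_of_card_ge hT'Sc ?_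
    have hcardT : Nat.card (T'.map π) = q ^ a := by
      rw [← hT'c]
      refine (Nat.card_congr (Equiv.ofBijective
        (fun x : T' => (⟨π x, mem_map_of_mem π x.2⟩ : T'.map π)) ⟨fun x y hxy =>
          Subtype.ext (hinj x x.2 y y.2 (congrArg Subtype.val hxy)), ?_⟩)).symm
      rintro ⟨_, x, hx, rfl⟩
      exact ⟨⟨x, hx⟩, rfl⟩
    obtain ⟨i, hi⟩ := IsPGroup.iff_card.mp hQp
    rw [hcardT, hi]
    refine Nat.pow_le_pow_right hq.out.pos ?_
    by_contra h
    refine hqa ((Nat.Coprime.pow_left _ ((Nat.coprime_primes hq.out hr.out).mpr hqr)).dvd_of_dvd_mul_left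
      (((pow_dvd_pow q (by omega : a + 1 ≤ i)).trans ?_).trans hXd))
    rw [← hi]; exact card_subgroup_dvd_card Q
  have hab : ∀ u ∈ T', ∀ v ∈ T', u * v = v * u := fun u hu v hv =>
    hinj _ (mul_mem hu hv) _ (mul_mem hv hu) (by
      rw [map_mul, map_mul]
      exact hQab _ (hTQ ▸ mem_map_of_mem π hu) _ (hTQ ▸ mem_map_of_mem π hv))
  have hTn : T'.Normal := by
    refine ⟨fun u hu g => ?_⟩
    have himg : π (g * u * g⁻¹) ∈ Q := by
      rw [map_mul, map_mul, map_inv]
      exact hQn.conj_mem _ (hTQ ▸ mem_map_of_mem π hu) _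
    rw [← hTQ] at himg
    obtain ⟨v, hv, hve⟩ := himg
    -- `g u g⁻¹ = v w` with `w ∈ A` commuting with `v`
    have hw : v⁻¹ * (g * u * g⁻¹) ∈ A := by
      rw [hπ, QuotientGroup.mk'_apply, QuotientGroup.mk'_apply, QuotientGroup.eq] at hve
      exact hve
    set w := v⁻¹ * (g * u * g⁻¹) with hwdef
    have hvw : Commute v w := (mem_centralizer_iff.mp (hT'C hv) w hw).symm
    have hpow : ∀ x ∈ T', x ^ (q ^ a) = 1 := fun x hx => by
      have := congrArg Subtype.val (pow_card_eq_one' (G := T') (x := ⟨x, hx⟩))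
      rwa [hT'c] at this
    have hw1 : w = 1 := by
      refine orderOf_eq_one_iff.mp (Nat.eq_one_of_dvd_coprimes ((hAc.symm).pow_left a)
        (orderOf_dvd_of_pow_eq_one ?_) (A.orderOf_dvd_natCard hw))
      have h1 : (v * w) ^ (q ^ a) = 1 := by
        rw [hwdef, mul_inv_cancel_left, conj_pow, hpow u hu, mul_one, mul_inv_cancel]
      rwa [hvw.mul_pow, hpow v hv, one_mul] at h1
    rw [hwdef, inv_mul_eq_one] at hw1
    exact hw1 ▸ hv
  exact not_mem_degreePrimes T' hT'q hidx hab

end Cfsg.Agent.H28.DegreeGraph
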